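/-
Dye's lemma for Zorn's algebra: every automorphism maps some element of trace one to itself modulo the scalars.
-/
import Cfsg.Agent.Lib.G2Oct.Aut8

set_option autoImplicit false
set_option linter.all false

namespace Cfsg.Agent.Lib.NCov.C1

open Cfsg.Agent.Lib.G2Oct.Aut8 Module

variable {F : Type*} [Field F]

lemma nm8_add (x y : V F) : nm8 (x + y) = nm8 x + nm8 y + bf8 x y := by
  simp [nm8, bf8]; ring

lemma nm8_smul (c : F) (x : V F) : nm8 (c • x) = c ^ 2 * nm8 x := by
  simp [nm8]; ring

lemma bf8_comm (x y : V F) : bf8 x y = bf8 y x := by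
  simp [bf8]; ring

lemma bf8_add (x y z : V F) : bf8 x (y + z) = bf8 x y + bf8 x z := by
  simp [bf8]; ring

lemma bf8_smul (c : F) (x y : V F) : bf8 x (c • y) = c * bf8 x y := by
  simp [bf8]; ring

lemma bf8_one (x : V F) : bf8 one8 x = tr8 x := by
  simp [bf8, one8, tr8]; ring

lemma nm8_one (F : Type*) [Field F] : nm8 (one8 : V F) = 1 := by
  simp [nm8, one8]

lemma bf8_nondeg (x : V F) (h : ∀ y, bf8 x y = 0) : x = 0 := by
  ext i
  fin_cases i
  · simpa [bf8] using h (Pi.single 7 1)
  · simpa [bf8] using h (Pi.single 4 1)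
  · simpa [bf8] using h (Pi.single 5 1)
  · simpa [bf8] using h (Pi.single 6 1)
  · simpa [bf8] using h (Pi.single 1 1)
  · simpa [bf8] using h (Pi.single 2 1)
  · simpa [bf8] using h (Pi.single 3 1)
  · simpa [bf8] using h (Pi.single 0 1)

lemma aut_bf (s : Aut8 F) (x y : V F) :
    bf8 ((s : V F ≃ₗ[F] V F) x) ((s : V F ≃ₗ[F] V F) y) = bf8 x y := by
  have h1 := (aut_tr_nm s (x + y)).2
  have h2 := (aut_tr_nm s x).2
  have h3 := (aut_tr_nm s y).2
  rw [map_add, nm8_add, nm8_add, h2, h3] at h1
  exact add_left_cancel h1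

/-- The polarised norm as a linear form in the second variable. -/
def bfR (x : V F) : V F →ₗ[F] F where
  toFun := bf8 x
  map_add' := bf8_add x
  map_smul' c y := by simpa using bf8_smul c x y

/-- The polarised norm as a linear map to the dual. -/
def bfD : V F →ₗ[F] Module.Dual F (V F) where
  toFun := bfR
  map_add' x y := by
    ext z
    change bf8 (x + y) _ = bf8 x _ + bf8 y _
    rw [bf8_comm, bf8_add, bf8_comm _ x, bf8_comm _ y]
  map_smul' c x := by
    ext z
    change bf8 (c • x) _ = c * bf8 x _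
    rw [bf8_comm, bf8_smul, bf8_comm]

lemma bfD_surj : Function.Surjective (bfD (F := F)) := by
  have hinj : Function.Injective (bfD (F := F)) := by
    rw [injective_iff_map_eq_zero]
    intro x hx
    apply bf8_nondeg
    intro y
    have := congrArg (fun f => f y) hx
    exact this
  have hdim : finrank F (V F) = finrank F (Module.Dual F (V F)) := (Subspace.dual_finrank_eq).symm
  exact (LinearMap.injective_iff_surjective_of_finrank_eq_finrank hdim).1 hinj

lemma tr8_add (x y : V F) : tr8 (x + y) = tr8 x + tr8 y := by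
  simp [tr8]; ring

lemma tr8_sub (x y : V F) : tr8 (x - y) = tr8 x - tr8 y := by
  simp [tr8]; ring

lemma bf8_one_right' (x : V F) : bf8 x one8 = tr8 x := by
  rw [bf8_comm, bf8_one]

/-- The trace as a linear form. -/
def trF : V F →ₗ[F] F where
  toFun := tr8
  map_add' := tr8_add
  map_smul' c x := by simp [tr8]; ring

/-- An element of trace one. -/
def a₀ : V F := Pi.single 0 1

lemma tr_a₀ : tr8 (a₀ : V F) = 1 := by
  simp [tr8, a₀]

theorem C1_dye8 (s : Aut8 F) :
    ∃ a : V F, tr8 a = 1 ∧ ∃ c : F, (s : V F ≃ₗ[F] V F) a = a + c • one8 := by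
  classical
  set L : V F ≃ₗ[F] V F := (s : V F ≃ₗ[F] V F) with hL
  -- the subspace `(L-1) W + F·1`
  let W : Submodule F (V F) := LinearMap.ker (trF (F := F))
  let M : V F →ₗ[F] V F := (L : V F →ₗ[F] V F) - LinearMap.id
  let X : Submodule F (V F) := W.map M ⊔ Submodule.span F {one8}
  set w : V F := L a₀ - a₀ with hw
  have hwX : w ∈ X := by
    by_contra hnot
    obtain ⟨φ, hφ1, hφ2⟩ := Submodule.exists_le_ker_of_notMem hnot
    obtain ⟨y, rfl⟩ := bfD_surj φ
    have hb : ∀ z ∈ X, bf8 y z = 0 := fun z hz => hφ2 hz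
    have hy1 : tr8 y = 0 := by
      rw [← bf8_one_right']
      exact hb _ (Submodule.mem_sup_right (Submodule.mem_span_singleton_self _))
    have hy2 : ∀ z, tr8 z = 0 → bf8 y (L z - z) = 0 := by
      intro z hz
      apply hb
      exact Submodule.mem_sup_left ⟨z, hz, rfl⟩
    -- `L y - y` is a scalar
    set d : V F := L y - y with hd
    have hdz : ∀ z, tr8 z = 0 → bf8 d (L z) = 0 := by
      intro z hz
      have h1 : bf8 (L y) (L z) = bf8 y z := aut_bf s y z
      have h2 := hy2 z hz
      have h3 : bf8 y (L z - z) = bf8 y (L z) - bf8 y z := by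
        simp [bf8]; ring
      have h4 : bf8 d (L z) = bf8 (L y) (L z) - bf8 y (L z) := by
        simp [bf8, hd]; ring
      rw [h4, h1]
      rw [h3] at h2
      linear_combination -h2
    have htrL : ∀ z, tr8 (L z) = tr8 z := fun z => (aut_tr_nm s z).1
    set κ : F := bf8 d a₀ with hκ
    have hdall : ∀ z, bf8 d z = tr8 z * κ := by
      intro z
      have hz0 : tr8 (L.symm z - tr8 z • L.symm a₀) = 0 := by
        have h1 : tr8 (L.symm z) = tr8 z := by
          have := htrL (L.symm z)
          rw [LinearEquiv.apply_symm_apply] at this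
          exact this.symm
        have h2 : tr8 (L.symm a₀) = 1 := by
          have := htrL (L.symm a₀)
          rw [LinearEquiv.apply_symm_apply, tr_a₀] at this
          exact this.symm
        rw [tr8_sub]
        have h3 : tr8 (tr8 z • L.symm a₀) = tr8 z * tr8 (L.symm a₀) := by
          simp [tr8]; ring
        rw [h3, h1, h2]; ring
      have h5 := hdz _ hz0
      rw [map_sub, map_smul, LinearEquiv.apply_symm_apply, LinearEquiv.apply_symm_apply] at h5
      have h6 : bf8 d (z - tr8 z • a₀) = bf8 d z - tr8 z * bf8 d a₀ := by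
        simp [bf8]; ring
      rw [h6] at h5
      rw [hκ]
      linear_combination h5
    have hdκ : d = κ • one8 := by
      rw [← sub_eq_zero]
      apply bf8_nondeg
      intro z
      have h1 : bf8 (d - κ • one8) z = bf8 d z - κ * bf8 one8 z := by
        simp [bf8]; ring
      rw [h1, hdall, bf8_one]
      ring
    have hLy : L y = y + κ • one8 := by
      rw [← hdκ, hd]; abel
    have hκ0 : κ = 0 := by
      have h1 : nm8 (L y) = nm8 y := (aut_tr_nm s y).2
      rw [hLy, nm8_add, nm8_smul, nm8_one, bf8_smul, bf8_one_right', hy1] at h1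
      have h2 : κ ^ 2 = 0 := by linear_combination h1
      exact pow_eq_zero_iff (two_ne_zero) |>.1 h2
    have hLy' : L y = y := by rw [hLy, hκ0]; simp
    apply hφ1
    change bf8 y w = 0
    have h1 : bf8 y (L a₀) = bf8 y a₀ := by
      conv_lhs => rw [← hLy']
      exact aut_bf s y a₀
    have h2 : bf8 y w = bf8 y (L a₀) - bf8 y a₀ := by
      simp [bf8, hw]; ring
    rw [h2, h1, sub_self]
  obtain ⟨u, hu, v, hv, huv⟩ := Submodule.mem_sup.1 hwX
  obtain ⟨z, hz, rfl⟩ := hu
  obtain ⟨c, rfl⟩ := Submodule.mem_span_singleton.1 hv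
  have hz0 : tr8 z = 0 := hz
  refine ⟨a₀ - z, ?_, c, ?_⟩
  · rw [tr8_sub, hz0, tr_a₀, sub_zero]
  · rw [map_sub]
    have h1 : M z = L z - z := rfl
    rw [h1] at huv
    have h2 : L a₀ = a₀ + (L z - z + c • one8) := by
      rw [huv, hw]; abel
    rw [h2]; abel

/-- The form with the signature of the module plan. -/
theorem C1_dye8' {F : Type*} [Field F] [Fintype F] (_h2 : (2 : F) = 0) (s : Aut8 F) :
    ∃ a : V F, tr8 a = 1 ∧ ∃ c : F, (s : V F ≃ₗ[F] V F) a = a + c • one8 := C1_dye8 s

end Cfsg.Agent.Lib.NCov.C1
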