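/-
Transitivity of the automorphism group of Zorn's algebra on the elements of trace one and given anisotropic norm,
in characteristic two: everything is done with the root elements.
-/
import Cfsg.Agent.Lib.G2Oct.Roots

set_option autoImplicit false
set_option linter.all false

namespace Cfsg.Agent.Lib.NCov.C2

open Cfsg.Agent.Lib.G2Oct.Aut8 Cfsg.Agent.Lib.G2Oct.Roots

variable {F : Type*} [Field F]

/-- `y` is in the orbit of `x`. -/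
def Reach (x y : V F) : Prop := ∃ s : Aut8 F, (s : V F ≃ₗ[F] V F) x = y

lemma Reach.refl (x : V F) : Reach x x := ⟨1, rfl⟩

lemma Reach.trans {x y z : V F} (h1 : Reach x y) (h2 : Reach y z) : Reach x z := by
  obtain ⟨s, rfl⟩ := h1
  obtain ⟨t, rfl⟩ := h2
  exact ⟨t * s, rfl⟩

lemma Reach.symm {x y : V F} (h : Reach x y) : Reach y x := by
  obtain ⟨s, rfl⟩ := h
  refine ⟨s⁻¹, ?_⟩
  have : ((s⁻¹ * s : Aut8 F) : V F ≃ₗ[F] V F) x = x := by simp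
  exact this

lemma reach_y (r : Fin 12) (t : F) (x : V F) : Reach x (yv r t x) := ⟨yE r t, rfl⟩

/-- First step: the coordinate `1` is made nonzero. -/
lemma step1 (x : V F) (h : x 1 ≠ 0 ∨ x 2 ≠ 0 ∨ x 3 ≠ 0) :
    ∃ y : V F, Reach x y ∧ y 1 ≠ 0 ∧ y 0 = x 0 ∧ y 7 = x 7 := by
  by_cases h1 : x 1 ≠ 0
  · exact ⟨x, Reach.refl x, h1, rfl, rfl⟩
  · push Not at h1
    by_cases h2 : x 2 ≠ 0
    · refine ⟨yv 6 1 x, reach_y _ _ _, ?_, ?_, ?_⟩ <;> simp [yv, h1, h2]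
    · push Not at h2
      have h3 : x 3 ≠ 0 := by
        rcases h with h | h | h
        · exact absurd h1 h
        · exact absurd h2 h
        · exact h
      refine ⟨yv 11 (-1) x, reach_y _ _ _, ?_, ?_, ?_⟩ <;> simp [yv, h1, h3]

/-- Second step: `u = e₁`. -/
lemma step2 (y : V F) (h : y 1 ≠ 0) :
    ∃ z : V F, Reach y z ∧ z 1 = 1 ∧ z 2 = 0 ∧ z 3 = 0 ∧ z 0 = y 0 ∧ z 7 = y 7 := by
  set t₁ : F := (1 - y 2) / y 1 with ht₁
  set z₁ : V F := yv 5 t₁ y with hz₁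
  have a1 : z₁ 1 = y 1 := by simp [hz₁, yv]
  have a2 : z₁ 2 = 1 := by
    simp [hz₁, yv, ht₁]
    field_simp
    ring
  have a0 : z₁ 0 = y 0 := by simp [hz₁, yv]
  have a7 : z₁ 7 = y 7 := by simp [hz₁, yv]
  set z₂ : V F := yv 6 (1 - y 1) z₁ with hz₂
  have b1 : z₂ 1 = 1 := by
    simp [hz₂, yv, a1, a2]
  have b2 : z₂ 2 = 1 := by simp [hz₂, yv, a2]
  have b0 : z₂ 0 = y 0 := by simp [hz₂, yv, a0]
  have b7 : z₂ 7 = y 7 := by simp [hz₂, yv, a7]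
  set z₃ : V F := yv 5 (-1) z₂ with hz₃
  have c1 : z₃ 1 = 1 := by simp [hz₃, yv, b1]
  have c2 : z₃ 2 = 0 := by simp [hz₃, yv, b1, b2]
  have c0 : z₃ 0 = y 0 := by simp [hz₃, yv, b0]
  have c7 : z₃ 7 = y 7 := by simp [hz₃, yv, b7]
  refine ⟨yv 0 (z₃ 3) z₃, ((reach_y _ _ _).trans (reach_y _ _ _)).trans
    ((reach_y _ _ _).trans (reach_y _ _ _)), ?_, ?_, ?_, ?_, ?_⟩
  · simp [yv, c1]
  · simp [yv, c2]
  · simp [yv, c1]
  · simp [yv, c0]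
  · simp [yv, c7]

/-- Third step: from `(0, e₁; w, 1)` to the reference element. -/
lemma step3 (h2 : (2 : F) = 0) (c₀ : F) (hc₀ : c₀ ≠ 0) (x : V F) (h0 : x 0 = 0) (h7 : x 7 = 1) (h1 : x 1 = 1)
    (h2' : x 2 = 0) (h3 : x 3 = 0) (hn : nm8 x = c₀) : Reach x ![0, 1, 0, 0, c₀, 0, 0, 1] := by
  have h4 : x 4 = c₀ := by
    simp only [nm8, h0, h7, h1, h2', h3] at hn
    have h20 : c₀ + c₀ = 0 := by linear_combination c₀ * h2
    linear_combination -hn - h20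
  have h40 : x 4 ≠ 0 := by rwa [h4]
  set z₁ : V F := yv 6 (x 5 / x 4) x with hz₁
  have a0 : z₁ 0 = 0 := by simp [hz₁, yv, h0]
  have a1 : z₁ 1 = 1 := by simp [hz₁, yv, h1, h2']
  have a2 : z₁ 2 = 0 := by simp [hz₁, yv, h2']
  have a3 : z₁ 3 = 0 := by simp [hz₁, yv, h3]
  have a4 : z₁ 4 = x 4 := by simp [hz₁, yv]
  have a5 : z₁ 5 = 0 := by
    simp [hz₁, yv]
    field_simp
    ring
  have a6 : z₁ 6 = x 6 := by simp [hz₁, yv]
  have a7 : z₁ 7 = 1 := by simp [hz₁, yv, h7]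
  have key : yv 11 (-(x 6 / x 4)) z₁ = ![0, 1, 0, 0, c₀, 0, 0, 1] := by
    ext i
    fin_cases i
    · simp [yv, a0]
    · simp [yv, a1, a3]
    · simp [yv, a2]
    · simp [yv, a3]
    · simp [yv, a4, h4]
    · simp [yv, a5]
    · simp [yv, a6, a4]
      field_simp
      ring
    · simp [yv, a7]
  rw [← key]
  exact (reach_y _ _ _).trans (reach_y _ _ _)

/-- Zeroth step: the coordinate `0` is killed. -/
lemma step0 (a : V F) (h : a 1 ≠ 0 ∨ a 2 ≠ 0 ∨ a 3 ≠ 0 ∨ a 4 ≠ 0 ∨ a 5 ≠ 0 ∨ a 6 ≠ 0) :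
    ∃ x : V F, Reach a x ∧ x 0 = 0 := by
  rcases h with h | h | h | h | h | h
  · refine ⟨yv 3 (-(a 0 / a 1)) a, reach_y _ _ _, ?_⟩
    simp [yv]
    field_simp
    ring
  · refine ⟨yv 4 (-(a 0 / a 2)) a, reach_y _ _ _, ?_⟩
    simp [yv]
    field_simp
    ring
  · refine ⟨yv 9 (a 0 / a 3) a, reach_y _ _ _, ?_⟩
    simp [yv]
    field_simp
    ring
  · refine ⟨yv 8 (a 0 / a 4) a, reach_y _ _ _, ?_⟩
    simp [yv]
    field_simp
    ring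
  · refine ⟨yv 7 (a 0 / a 5) a, reach_y _ _ _, ?_⟩
    simp [yv]
    field_simp
    ring
  · refine ⟨yv 2 (-(a 0 / a 6)) a, reach_y _ _ _, ?_⟩
    simp [yv]
    field_simp
    ring

lemma reach_inv {x y : V F} (h : Reach x y) : tr8 y = tr8 x ∧ nm8 y = nm8 x := by
  obtain ⟨s, rfl⟩ := h
  exact aut_tr_nm s x

theorem C2_trans [Fintype F] (h2 : (2 : F) = 0) (c₀ : F) (hc₀ : ∀ t : F, t ^ 2 + t ≠ c₀) (a : V F)
    (ha : tr8 a = 1) (hn : nm8 a = c₀) :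
    ∃ s : Aut8 F, (s : V F ≃ₗ[F] V F) ![0, 1, 0, 0, c₀, 0, 0, 1] = a := by
  have hc0 : c₀ ≠ 0 := by
    intro h
    apply hc₀ 0
    rw [h]
    simp
  have h20 : ∀ z : F, z + z = 0 := fun z => by linear_combination z * h2
  have hsome : a 1 ≠ 0 ∨ a 2 ≠ 0 ∨ a 3 ≠ 0 ∨ a 4 ≠ 0 ∨ a 5 ≠ 0 ∨ a 6 ≠ 0 := by
    by_contra hall
    push Not at hall
    obtain ⟨e1, e2, e3, e4, e5, e6⟩ := hall
    apply hc₀ (a 0)
    simp only [nm8, e1, e2, e3, e4, e5, e6] at hn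
    have h7 : a 7 = 1 + a 0 := by
      simp only [tr8] at ha
      linear_combination ha + h20 (a 0) * (-1)
    rw [← hn, h7]
    ring
  obtain ⟨x, hax, hx0⟩ := step0 a hsome
  obtain ⟨hxt, hxn⟩ := reach_inv hax
  rw [ha] at hxt
  rw [hn] at hxn
  have hx7 : x 7 = 1 := by
    simp only [tr8, hx0, zero_add] at hxt
    exact hxt
  have hu : x 1 ≠ 0 ∨ x 2 ≠ 0 ∨ x 3 ≠ 0 := by
    by_contra hall
    push Not at hall
    obtain ⟨e1, e2, e3⟩ := hall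
    apply hc0
    simp only [nm8, e1, e2, e3, hx0] at hxn
    rw [← hxn]
    ring
  obtain ⟨y, hxy, hy1, hy0, hy7⟩ := step1 x hu
  obtain ⟨z, hyz, hz1, hz2, hz3, hz0, hz7⟩ := step2 y hy1
  have hzn : nm8 z = c₀ := by
    rw [(reach_inv ((hax.trans hxy).trans hyz)).2, hn]
  have := step3 h2 c₀ hc0 z (by rw [hz0, hy0, hx0]) (by rw [hz7, hy7, hx7]) hz1 hz2 hz3 hzn
  exact (((hax.trans hxy).trans hyz).trans this).symm

end Cfsg.Agent.Lib.NCov.C2
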