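/-
`G₂(2^a)` is covered by the conjugates of the stabilisers of two cosets of the identity.
-/
import Cfsg.Agent.Lib.NCov.Defs
import Cfsg.Agent.Lib.NCov.B2
import Cfsg.Agent.Lib.NCov.C1
import Cfsg.Agent.Lib.NCov.C2
import Cfsg.Agent.Lib.G2Oct.Count

set_option autoImplicit false
set_option linter.unusedSectionVars false

namespace Cfsg.Agent.Lib.NCov.G2Even

open Module Cfsg.Agent.Lib.NCov.Defs Cfsg.Agent.Lib.G2Oct.Aut8 Cfsg.Agent.Lib.G2Oct.Count
  Cfsg.Agent.Lib.G2Oct.Oct Cfsg.Lie Cfsg.Agent.Lib.G2Oct.Stab Cfsg.Agent.Lib.G2Oct.ChevIso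

variable {F : Type*} [Field F]

theorem act_inv_act (s : Aut8 F) (x : V F) :
    ((s⁻¹ : Aut8 F) : V F ≃ₗ[F] V F) ((s : V F ≃ₗ[F] V F) x) = x := by
  have h : ((s⁻¹ * s : Aut8 F) : V F ≃ₗ[F] V F) x = x := by simp
  exact h

theorem act_act_inv (s : Aut8 F) (x : V F) :
    (s : V F ≃ₗ[F] V F) (((s⁻¹ : Aut8 F) : V F ≃ₗ[F] V F) x) = x := by
  have h : ((s * s⁻¹ : Aut8 F) : V F ≃ₗ[F] V F) x = x := by simp
  exact h

/-- The stabiliser of the coset `a + F 1`. -/
def cosetStab (a : V F) : Subgroup (Aut8 F) where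
  carrier := {s | ∃ c : F, (s : V F ≃ₗ[F] V F) a = a + c • one8}
  mul_mem' := by
    rintro s t ⟨c, hc⟩ ⟨d, hd⟩
    refine ⟨c + d, ?_⟩
    change (s : V F ≃ₗ[F] V F) ((t : V F ≃ₗ[F] V F) a) = _
    rw [hd, map_add, map_smul, aut_one, hc, add_smul, add_assoc]
  one_mem' := ⟨0, by simp⟩
  inv_mem' := by
    rintro s ⟨c, hc⟩
    refine ⟨-c, ?_⟩
    have h1 := act_inv_act s a
    rw [hc, map_add, map_smul] at h1
    have h2 : ((s⁻¹ : Aut8 F) : V F ≃ₗ[F] V F) one8 = one8 := aut_one s⁻¹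
    rw [h2] at h1
    rw [neg_smul, ← sub_eq_add_neg]
    exact eq_sub_of_add_eq h1

theorem conj_mem (r s : Aut8 F) (b a : V F) (c : F) (hr : (r : V F ≃ₗ[F] V F) b = a)
    (hs : (s : V F ≃ₗ[F] V F) a = a + c • one8) : r⁻¹ * s * (r⁻¹)⁻¹ ∈ cosetStab b := by
  refine ⟨c, ?_⟩
  rw [inv_inv]
  change ((r⁻¹ : Aut8 F) : V F ≃ₗ[F] V F) ((s : V F ≃ₗ[F] V F) ((r : V F ≃ₗ[F] V F) b)) = _
  rw [hr, hs, map_add, map_smul, aut_one, ← hr, act_inv_act]

theorem cover_aut8 [Fintype F] (h2 : (2 : F) = 0) : HasCover (Aut8 F) := by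
  classical
  have hAS : ¬ Function.Injective (fun t : F => t ^ 2 + t) := by
    intro h
    have h1 : (fun t : F => t ^ 2 + t) 1 = (fun t : F => t ^ 2 + t) 0 := by
      simp only
      have : (1 : F) + 1 = 2 := by norm_num
      simp [this, h2]
    exact one_ne_zero (h h1)
  have hsurj : ¬ Function.Surjective (fun t : F => t ^ 2 + t) := fun h =>
    hAS (Finite.injective_iff_surjective.2 h)
  simp only [Function.Surjective, not_forall, not_exists] at hsurj
  obtain ⟨c₀, hc₀⟩ := hsurj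
  let a₀ : V F := ![0, 1, 0, 0, c₀, 0, 0, 1]
  have hneg : ∀ x : F, - x = x := by
    intro x
    have : x + x = 0 := by
      have : x + x = 2 * x := by ring
      rw [this, h2, zero_mul]
    exact neg_eq_of_add_eq_zero_left this
  refine ⟨cosetStab (E 0), cosetStab a₀, ?_, ?_, ?_⟩
  · intro h
    let x : V F := ![0, 1, 0, 0, 0, 0, 0, 1]
    have hx : x ∈ Idem F := idem_of_char (by simp [tr8, x]) (by simp [nm8, x])
    obtain ⟨s, hs⟩ := idem_trans hx
    have hmem : s ∈ cosetStab (E 0 : V F) := by rw [h]; trivial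
    obtain ⟨c, hc⟩ := hmem
    rw [hs] at hc
    have := congrFun hc 1
    simp [x, one8, E_apply] at this
  · intro h
    let x : V F := ![0, 0, c₀, 0, 0, 1, 0, 1]
    obtain ⟨s, hs⟩ := Cfsg.Agent.Lib.NCov.C2.C2_trans h2 c₀ hc₀ x (by simp [tr8, x]) (by
      simp [nm8, x, hneg])
    have hmem : s ∈ cosetStab a₀ := by rw [h]; trivial
    obtain ⟨c, hc⟩ := hmem
    change (s : V F ≃ₗ[F] V F) a₀ = _ at hc
    have hs' : (s : V F ≃ₗ[F] V F) a₀ = x := hs
    rw [hs'] at hc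
    have := congrFun hc 1
    simp [x, a₀, one8] at this
  · intro s
    obtain ⟨a, ha, c, hc⟩ := Cfsg.Agent.Lib.NCov.C1.C1_dye8 s
    have htr : ∀ t : F, tr8 (a + t • one8) = 1 := by
      intro t
      have : tr8 (a + t • (one8 : V F)) = tr8 a + 2 * t := by
        simp [tr8, one8]
        ring
      rw [this, ha, h2, zero_mul, add_zero]
    have hnm : ∀ t : F, nm8 (a + t • one8) = nm8 a + (t ^ 2 + t) := by
      intro t
      have h0 : a 0 + a 7 = 1 := ha
      have : nm8 (a + t • (one8 : V F)) = nm8 a + t * (a 0 + a 7) + t ^ 2 := by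
        simp [nm8, one8]
        ring
      rw [this, h0]
      ring
    have hs : ∀ t : F, (s : V F ≃ₗ[F] V F) (a + t • one8) = (a + t • one8) + c • one8 := by
      intro t
      rw [map_add, map_smul, aut_one, hc]
      abel
    have hself : ∀ x : F, x + x = 0 := by
      intro x
      have : x + x = 2 * x := by ring
      rw [this, h2, zero_mul]
    by_cases hval : ∃ t : F, t ^ 2 + t = nm8 a
    · obtain ⟨t, ht⟩ := hval
      have hx : (a + t • one8) ∈ Idem F := idem_of_char (htr t) (by rw [hnm, ht, hself])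
      obtain ⟨r, hr⟩ := idem_trans hx
      exact ⟨r⁻¹, Or.inl (conj_mem r s _ _ c hr (hs t))⟩
    · push Not at hval
      obtain ⟨t, ht⟩ := Cfsg.Agent.Lib.NCov.B2.as_add h2 hval hc₀
      obtain ⟨r, hr⟩ := Cfsg.Agent.Lib.NCov.C2.C2_trans h2 c₀ hc₀ (a + t • one8) (htr t) (by
        rw [hnm, ht, ← add_assoc, hself, zero_add])
      exact ⟨r⁻¹, Or.inr (conj_mem r s _ _ c hr (hs t))⟩

/-- `G₂(2^a)` has normal covering number 2. -/
theorem g2even [Fintype F] (a : ℕ) (ha : 2 ≤ a) (hF : Fintype.card F = 2 ^ a) :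
    HasCover (Cfsg.Lie.G2 F) := by
  have h2 : (2 : F) = 0 := by
    have h1 : ((Fintype.card F : ℕ) : F) = 0 := Nat.cast_card_eq_zero F
    rw [hF] at h1
    push_cast at h1
    exact pow_eq_zero_iff (by omega) |>.1 h1
  exact (cover_aut8 h2).of_equiv (autDouble.trans g2Equiv.symm)

end Cfsg.Agent.Lib.NCov.G2Even
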